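import Cfsg.Agent.Lib.ToddCox.Fi22_3510.P0
set_option autoImplicit false
set_option maxRecDepth 100000
namespace Cfsg.Agent.Lib.ToddCox.Fi22_3510
theorem covered : Covered Eo inv W isH 10405 42126 := (Covered.trans (Covered.trans (Covered.trans (Covered.trans c0 c1) (Covered.trans c2 c3)) (Covered.trans (Covered.trans c4 c5) (Covered.trans c6 c7))) (Covered.trans (Covered.trans (Covered.trans c8 c9) (Covered.trans c10 c11)) (Covered.trans (Covered.trans c12 c13) (Covered.trans c14 (Covered.trans c15 c16)))))
theorem links : LinksOK Eo cF (2 * nEv) N ys 0 3510 := (LinksOK.trans (LinksOK.trans k0 k1) (LinksOK.trans k2 (LinksOK.trans k3 k4)))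
theorem defs : ∀ c, c < nDef → chkDef Eo inv c = true := defs_of_bits 10405 13 2 (by norm_num) (by
  intro j hj
  interval_cases j
  · exact d0
  · exact d1
  )
theorem words : ∀ j, j < nW → wordsOK W (relR Rb inv) inv sp j = true := allBelow_spec (by norm_num [nW]) wordsGood
end Cfsg.Agent.Lib.ToddCox.Fi22_3510
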